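import Mathlib

/-!
# Ladder "HUP": Huppert's theorem on solvable linear groups transitive on nonzero vectors

Definitions. `V` is a finite vector space over `ZMod q`; all groups are subgroups of
`V ≃ₗ[ZMod q] V`.
-/

set_option autoImplicit false

namespace Cfsg.Agent.Lib.Helper76.Hup

/-- `p` is a primitive prime divisor of `q ^ n - 1` -/
def IsPPD (p q n : ℕ) : Prop :=
  p.Prime ∧ p ∣ q ^ n - 1 ∧ ∀ k : ℕ, 0 < k → k < n → ¬ p ∣ q ^ k - 1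

variable {q : ℕ} {V : Type*} [AddCommGroup V] [Module (ZMod q) V]

/-- `H` acts irreducibly on `V` -/
def Irr (H : Subgroup (V ≃ₗ[ZMod q] V)) : Prop :=
  ∀ W : Submodule (ZMod q) V, (∀ h ∈ H, ∀ w ∈ W, h w ∈ W) → W = ⊥ ∨ W = ⊤

/-- `G` is transitive on the nonzero vectors -/
def Trans (G : Subgroup (V ≃ₗ[ZMod q] V)) : Prop :=
  ∀ v w : V, v ≠ 0 → w ≠ 0 → ∃ g ∈ G, g v = w

/-- `G` consists of semilinear maps `x ↦ a * σ x` of a field structure on `V` -/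
def Semi (G : Subgroup (V ≃ₗ[ZMod q] V)) : Prop :=
  ∃ (F : Type) (_ : Field F) (_ : Fintype F) (e : V ≃+ F),
    ∀ g ∈ G, ∃ (a : F) (σ : F ≃+* F), ∀ v : V, e (g v) = a * σ (e v)

/-- `A` is an abelian subgroup of `G` normalized by `G` -/
def IsAN (G A : Subgroup (V ≃ₗ[ZMod q] V)) : Prop :=
  A ≤ G ∧ (∀ g ∈ G, ∀ a ∈ A, g * a * g⁻¹ ∈ A) ∧ ∀ a ∈ A, ∀ b ∈ A, a * b = b * a

/-- `G` has an irreducible abelian normal subgroup -/
def HasIAN (G : Subgroup (V ≃ₗ[ZMod q] V)) : Prop := ∃ A, IsAN G A ∧ Irr A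

/-- `D` is minimal among the `y`-invariant subgroups not centralized by `x` -/
structure MinD {Γ : Type*} [Group Γ] (y x : Γ) (D : Subgroup Γ) : Prop where
  inv : ∀ a ∈ D, y * a * y⁻¹ ∈ D
  nc : ∃ a ∈ D, x * a ≠ a * x
  min : ∀ D₀ : Subgroup Γ, D₀ < D → (∀ a ∈ D₀, y * a * y⁻¹ ∈ D₀) → ∀ a ∈ D₀, x * a = a * x

end Cfsg.Agent.Lib.Helper76.Hup
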