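import Mathlib
import Cfsg.Agent.Lib.Helper76.Hup.Defs

/-! Ladder "HUP": basic facts. -/

set_option autoImplicit false

namespace Cfsg.Agent.Lib.Helper76.Hup

open Subgroup

section lin
variable {q : ℕ} {V : Type*} [AddCommGroup V] [Module (ZMod q) V]

theorem finite_gl [Finite V] : Finite (V ≃ₗ[ZMod q] V) :=
  Finite.of_injective (fun f => (f : V → V)) DFunLike.coe_injective

theorem Irr.mono {H K : Subgroup (V ≃ₗ[ZMod q] V)} (h : Irr H) (hHK : H ≤ K) : Irr K :=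
  fun W hW => h W (fun a ha w hw => hW a (hHK ha) w hw)

/-- `|V| - 1` divides `|G|` -/
theorem card_sub_one_dvd [Finite V] [Nontrivial V] (G : Subgroup (V ≃ₗ[ZMod q] V))
    (htr : Trans G) : Nat.card V - 1 ∣ Nat.card G := by
  classical
  obtain ⟨v₀, hv₀⟩ := exists_ne (0 : V)
  have horb : MulAction.orbit G v₀ = {w : V | w ≠ 0} := by
    ext w
    constructor
    · rintro ⟨g, rfl⟩
      intro h
      apply hv₀
      have h' : (g : V ≃ₗ[ZMod q] V) v₀ = 0 := h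
      exact (LinearEquiv.map_eq_zero_iff _).mp h'
    · intro hw
      obtain ⟨g, hg, hgw⟩ := htr v₀ w hv₀ hw
      exact ⟨⟨g, hg⟩, hgw⟩
  have h1 := MulAction.index_stabilizer G v₀
  have h2 : (MulAction.orbit G v₀).ncard = Nat.card V - 1 := by
    rw [horb]
    have : {w : V | w ≠ 0} = ({0} : Set V)ᶜ := by ext; simp
    rw [this, Set.ncard_compl, Set.ncard_singleton]
  rw [← h2, ← h1]
  exact Subgroup.index_dvd_card _

end lin

section grp
variable {Γ : Type*} [Group Γ]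

/-- the centre of a subgroup normalized by `G` is normalized by `G` -/
theorem center_conj_mem {G Q : Subgroup Γ} (hQn : ∀ g ∈ G, ∀ a ∈ Q, g * a * g⁻¹ ∈ Q) :
    ∀ g ∈ G, ∀ a ∈ Q ⊓ centralizer (Q : Set Γ), g * a * g⁻¹ ∈ Q ⊓ centralizer (Q : Set Γ) := by
  intro g hg a ha
  rw [mem_inf, mem_centralizer_iff] at ha ⊢
  refine ⟨hQn g hg a ha.1, fun b hb => ?_⟩
  have h1 : g⁻¹ * b * g⁻¹⁻¹ ∈ Q := hQn g⁻¹ (G.inv_mem hg) b hb
  have h2 := ha.2 _ h1
  have e1 : b * (g * a * g⁻¹) = g * ((g⁻¹ * b * g⁻¹⁻¹) * a) * g⁻¹ := by group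
  have e2 : g * a * g⁻¹ * b = g * (a * (g⁻¹ * b * g⁻¹⁻¹)) * g⁻¹ := by group
  rw [e1, e2, h2]

/-- a nontrivial finite `p`-subgroup has a central element of order `p` -/
theorem exists_central_orderOf_eq {p : ℕ} [Fact p.Prime] {Q : Subgroup Γ} [Finite Q]
    (hQ : IsPGroup p Q) (hne : Q ≠ ⊥) :
    ∃ z ∈ Q, orderOf z = p ∧ ∀ b ∈ Q, z * b = b * z := by
  have hnt : Nontrivial Q := (Subgroup.nontrivial_iff_ne_bot Q).mpr hne
  have hc : Nontrivial (center Q) := hQ.center_nontrivial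
  have hcp : IsPGroup p (center Q) := hQ.to_subgroup _
  obtain ⟨k, hk⟩ := IsPGroup.iff_card.mp hcp
  have hk0 : k ≠ 0 := by
    rintro rfl
    rw [pow_zero] at hk
    have := Finite.one_lt_card_iff_nontrivial.mpr hc
    omega
  have hdvd : p ∣ Nat.card (center Q) := by rw [hk]; exact dvd_pow_self p hk0
  obtain ⟨z, hz⟩ := exists_prime_orderOf_dvd_card' p hdvd
  refine ⟨((z : Q) : Γ), (z : Q).2, ?_, ?_⟩
  · rw [Subgroup.orderOf_coe, Subgroup.orderOf_coe, hz]
  · intro b hb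
    have := (mem_center_iff.mp z.2) ⟨b, hb⟩
    exact (congrArg Subtype.val this).symm

end grp

end Cfsg.Agent.Lib.Helper76.Hup
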