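import Mathlib
import Cfsg.Agent.Lib.Helper76.Hup.Defs

/-! Ladder "HUP": arithmetic rungs. -/

set_option autoImplicit false

namespace Cfsg.Agent.Lib.Helper76.Hup

theorem not_dvd_base_of_dvd_pow_sub_one {p q n : ℕ} (hp : p.Prime) (hn : 0 < n) (hq : 1 < q)
    (h : p ∣ q ^ n - 1) : ¬ p ∣ q := by
  intro hpq
  have h1 : p ∣ q ^ n := dvd_pow hpq hn.ne'
  have h2 : 1 ≤ q ^ n := Nat.one_le_pow _ _ (by omega)
  have h3 : p ∣ q ^ n - (q ^ n - 1) := Nat.dvd_sub h1 h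
  have h4 : q ^ n - (q ^ n - 1) = 1 := by omega
  rw [h4] at h3
  exact hp.one_lt.ne' (Nat.dvd_one.mp h3)

/-- `p ∣ q ^ k - 1` iff `(q : ZMod p) ^ k = 1` -/
theorem dvd_pow_sub_one_iff {p q k : ℕ} (hq : 1 ≤ q) :
    p ∣ q ^ k - 1 ↔ ((q : ZMod p)) ^ k = 1 := by
  have h2 : 1 ≤ q ^ k := Nat.one_le_pow _ _ hq
  rw [← ZMod.natCast_eq_zero_iff, Nat.cast_sub h2, Nat.cast_pow, Nat.cast_one, sub_eq_zero]

/-- RUNG AR1 -/
theorem succ_le_of_isPPD {p q n : ℕ} (hn : 0 < n) (hq : 1 < q) (h : IsPPD p q n) : n + 1 ≤ p := by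
  obtain ⟨hp, h1, h2⟩ := h
  have _ : Fact p.Prime := ⟨hp⟩
  have hpq : ¬ p ∣ q := not_dvd_base_of_dvd_pow_sub_one hp hn hq h1
  have hq0 : (q : ZMod p) ≠ 0 := by rwa [Ne, ZMod.natCast_eq_zero_iff]
  have hfer : (q : ZMod p) ^ (p - 1) = 1 := ZMod.pow_card_sub_one_eq_one hq0
  have h3 : p ∣ q ^ (p - 1) - 1 := (dvd_pow_sub_one_iff (by omega)).mpr hfer
  by_contra hlt
  have hp1 : 0 < p - 1 := by have := hp.two_le; omega
  exact h2 (p - 1) hp1 (by omega) h3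

/-- RUNG AR2 -/
theorem le_of_pow_dvd {p r k t : ℕ} (hp : p.Prime) (hp2 : p ≠ 2) (hr : 1 < r) (hk : 0 < k)
    (h : p ^ t ∣ r ^ (2 * k) - 1) : p ^ t ≤ r ^ k + 1 := by
  have h1 : 1 < r ^ k := Nat.one_lt_pow hk.ne' hr
  have e : r ^ (2 * k) - 1 = (r ^ k - 1) * (r ^ k + 1) := by
    obtain ⟨a, ha⟩ : ∃ a, r ^ k = a + 1 := ⟨r ^ k - 1, by omega⟩
    rw [mul_comm 2 k, pow_mul, ha]
    have : (a + 1) ^ 2 - 1 = (a + 1 - 1) * (a + 1 + 1) := by
      have : (a + 1) ^ 2 = a * (a + 2) + 1 := by ring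
      rw [this]; simp
    exact this
  rw [e] at h
  by_cases hd : p ∣ r ^ k - 1
  · -- then `p` does not divide `r ^ k + 1`
    have hnd : ¬ p ∣ r ^ k + 1 := by
      intro h2
      have h3 : p ∣ (r ^ k + 1) - (r ^ k - 1) := Nat.dvd_sub h2 hd
      have h4 : (r ^ k + 1) - (r ^ k - 1) = 2 := by omega
      rw [h4] at h3
      exact hp2 ((Nat.prime_dvd_prime_iff_eq hp Nat.prime_two).mp h3)
    have hcop : Nat.Coprime (p ^ t) (r ^ k + 1) :=
      Nat.Coprime.pow_left t ((Nat.Prime.coprime_iff_not_dvd hp).mpr hnd)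
    have := Nat.le_of_dvd (by omega) (hcop.dvd_of_dvd_mul_right h)
    omega
  · have hcop : Nat.Coprime (p ^ t) (r ^ k - 1) :=
      Nat.Coprime.pow_left t ((Nat.Prime.coprime_iff_not_dvd hp).mpr hd)
    exact Nat.le_of_dvd (by omega) (hcop.dvd_of_dvd_mul_left h)

theorem three_pow_gt {h : ℕ} (hh : 3 ≤ h) : 4 * h + 1 < 3 ^ h := by
  induction h, hh using Nat.le_induction with
  | base => norm_num
  | succ m hm ih => rw [pow_succ]; omega

/-- RUNG AR3 -/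
theorem arith_final {q n k : ℕ} (hq : q.Prime) (hq2 : q ≠ 2) (hn : n = 2 ^ k) (hn4 : 4 ≤ n)
    (h : ∀ p, IsPPD p q n → p = n + 1 ∧ ¬ p ^ 2 ∣ q ^ n - 1) : q = 3 ∧ n = 4 := by
  have hk2 : 2 ≤ k := by
    by_contra hlt
    have : k = 0 ∨ k = 1 := by omega
    rcases this with rfl | rfl <;> omega
  obtain ⟨j, rfl⟩ : ∃ j, k = j + 2 := ⟨k - 2, by omega⟩
  set h' := 2 ^ j with hh'
  set hf := 2 * h' with hhf
  have hnh : n = 2 * hf := by rw [hn, hhf, hh']; ring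
  have hh'pos : 0 < h' := by positivity
  have hq3 : 3 ≤ q := by
    have := hq.two_le
    omega
  have hqodd : Odd q := hq.odd_of_ne_two hq2
  set Q := q ^ hf with hQ
  -- `Q ≡ 1 mod 4`
  have hQ4 : Q % 4 = 1 := by
    have h1 : Odd (q ^ h') := hqodd.pow
    obtain ⟨c, hc⟩ := h1
    have : Q = (q ^ h') ^ 2 := by rw [hQ, hhf, mul_comm, pow_mul]
    rw [this, hc]
    have : (2 * c + 1) ^ 2 = 4 * (c * c + c) + 1 := by ring
    rw [this]; omega
  obtain ⟨m, hm⟩ : ∃ m, Q + 1 = 2 * m := ⟨(Q + 1) / 2, by omega⟩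
  have hmodd : m % 2 = 1 := by omega
  have hQ9 : 9 ≤ Q := by
    calc 9 = 3 ^ 2 := by norm_num
      _ ≤ q ^ 2 := Nat.pow_le_pow_left hq3 2
      _ ≤ q ^ hf := Nat.pow_le_pow_right (by omega) (by omega)
  have hm1 : m ≠ 1 := by omega
  have hm0 : m ≠ 0 := by omega
  have hfact : q ^ n - 1 = (Q - 1) * (2 * m) := by
    rw [← hm, hnh, mul_comm 2 hf, pow_mul, ← hQ]
    obtain ⟨a, ha⟩ : ∃ a, Q = a + 1 := ⟨Q - 1, by omega⟩
    rw [ha]
    have : (a + 1) ^ 2 = a * (a + 2) + 1 := by ring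
    rw [this]; simp
  have hmdvd : m ∣ q ^ n - 1 := by rw [hfact]; exact Dvd.intro_left ((Q - 1) * 2) (by ring)
  -- every prime divisor of `m` is a primitive prime divisor
  have hppd : ∀ p, p.Prime → p ∣ m → IsPPD p q n := by
    intro p hp hpm
    have _ : Fact p.Prime := ⟨hp⟩
    have hp2 : p ≠ 2 := by
      rintro rfl
      omega
    refine ⟨hp, hpm.trans hmdvd, ?_⟩
    intro i hi0 hin hdi
    have h1 : (q : ZMod p) ^ i = 1 := (dvd_pow_sub_one_iff (by omega)).mp hdi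
    have h2 : (q : ZMod p) ^ hf = -1 := by
      have : ((Q + 1 : ℕ) : ZMod p) = 0 := by
        rw [ZMod.natCast_eq_zero_iff, hm]; exact Dvd.dvd.mul_left hpm 2
      rw [Nat.cast_add, Nat.cast_one, hQ, Nat.cast_pow] at this
      exact eq_neg_of_add_eq_zero_left this
    have h3 : (q : ZMod p) ^ n = 1 := by
      rw [hnh, mul_comm, pow_mul, h2]; norm_num
    have hd1 : orderOf (q : ZMod p) ∣ i := orderOf_dvd_of_pow_eq_one h1
    have hd2 : orderOf (q : ZMod p) ∣ 2 ^ (j + 2) := by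
      rw [← hn]; exact orderOf_dvd_of_pow_eq_one h3
    obtain ⟨e, he, hoe⟩ := (Nat.dvd_prime_pow Nat.prime_two).mp hd2
    have hlt : orderOf (q : ZMod p) < 2 ^ (j + 2) := by
      rw [← hn]; exact lt_of_le_of_lt (Nat.le_of_dvd hi0 hd1) hin
    have he' : e < j + 2 := by
      rw [hoe] at hlt
      exact (Nat.pow_lt_pow_iff_right (by norm_num)).mp hlt
    have hd3 : orderOf (q : ZMod p) ∣ hf := by
      rw [hoe, hhf, hh', ← pow_succ']
      exact pow_dvd_pow 2 (by omega)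
    have h4 : (q : ZMod p) ^ hf = 1 := orderOf_dvd_iff_pow_eq_one.mp hd3
    rw [h4] at h2
    have h5 : (2 : ZMod p) = 0 := by
      have : (1 : ZMod p) + 1 = 0 := by nth_rewrite 1 [h2]; ring
      rw [← this]; norm_num
    have h6 : ((2 : ℕ) : ZMod p) = 0 := by exact_mod_cast h5
    rw [ZMod.natCast_eq_zero_iff] at h6
    exact hp2 ((Nat.prime_dvd_prime_iff_eq hp Nat.prime_two).mp h6)
  have huniq : ∀ {d : ℕ}, d.Prime → d ∣ m → d = n + 1 := fun hd hdm => (h _ (hppd _ hd hdm)).1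
  have hmpow := Nat.eq_prime_pow_of_unique_prime_dvd hm0 huniq
  set e := m.primeFactorsList.length with he
  obtain ⟨p₀, hp₀, hp₀m⟩ := Nat.exists_prime_and_dvd hm1
  have hp₀n : p₀ = n + 1 := huniq hp₀ hp₀m
  have hnsq : ¬ (n + 1) ^ 2 ∣ q ^ n - 1 := by
    have := (h _ (hppd _ hp₀ hp₀m)).2
    rwa [hp₀n] at this
  have he1 : e = 1 := by
    have h0 : e ≠ 0 := by
      intro h0
      rw [h0, pow_zero] at hmpow
      exact hm1 hmpow
    have h2 : e < 2 := by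
      by_contra hge
      apply hnsq
      refine Dvd.dvd.trans ?_ hmdvd
      rw [hmpow]
      exact pow_dvd_pow _ (by omega)
    omega
  rw [he1, pow_one] at hmpow
  -- `q ^ hf = 4 hf + 1`
  have hQeq : Q = 4 * hf + 1 := by omega
  have hhf2 : hf = 2 := by
    by_contra hne
    have h3 : 3 ≤ hf := by omega
    have h4 := three_pow_gt h3
    have h5 : 3 ^ hf ≤ Q := Nat.pow_le_pow_left hq3 hf
    omega
  have hq9 : q ^ 2 = 9 := by rw [← hhf2, ← hQ, hQeq, hhf2]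
  have hq3' : q = 3 := by
    have : q ^ 2 = 3 ^ 2 := by rw [hq9]; norm_num
    exact Nat.pow_left_injective (by norm_num : 2 ≠ 0) this
  exact ⟨hq3', by omega⟩

end Cfsg.Agent.Lib.Helper76.Hup
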