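import Mathlib
import Cfsg.Agent.Lib.Helper76.Hup.Defs
import Cfsg.Agent.Lib.Helper76.Hup.Arith
import Cfsg.Agent.Lib.Helper71.HupMA
import Cfsg.Agent.Lib.Helper71.HupMB
import Cfsg.Agent.Lib.Helper71.HupM5
import Cfsg.Agent.Lib.Helper62.HupP12
import Cfsg.Agent.Lib.Helper62.HupC12
import Cfsg.Agent.Lib.Helper62.HupAB
import Cfsg.Agent.Lib.Helper62.HupDIM
import Cfsg.Agent.Lib.Helper67.Extraspecial

/-! Ladder "HUP": the local lemma. -/

set_option autoImplicit false

namespace Cfsg.Agent.Lib.Helper76.Hup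

open Subgroup
open Cfsg.Agent.Lib.Helper71.Hup (exists_minD minD_gen minD_cent_central minD_comm_pow_cent
  minD_center_cent dvd_card_sub_card_cent)
open Cfsg.Agent.Lib.Helper62.Hup (irr_of_ppd injective_of_commute_irr isCyclic_of_commute_irr
  abelian_false card_le_sq_mul)

theorem card_eq_card_mul_relIndex {Γ : Type*} [Group Γ] {H K : Subgroup Γ} (h : H ≤ K) :
    Nat.card K = Nat.card H * H.relIndex K := by
  have := Subgroup.relIndex_mul_relIndex ⊥ H K bot_le h
  rwa [relIndex_bot_left, relIndex_bot_left, eq_comm] at this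

theorem conj_pow_mem {Γ : Type*} [Group Γ] {y : Γ} {D : Subgroup Γ}
    (h : ∀ a ∈ D, y * a * y⁻¹ ∈ D) (k : ℕ) : ∀ a ∈ D, y ^ k * a * (y ^ k)⁻¹ ∈ D := by
  induction k with
  | zero => intro a ha; simpa using ha
  | succ k ih =>
    intro a ha
    have := h _ (ih a ha)
    have e : y ^ (k + 1) * a * (y ^ (k + 1))⁻¹ = y * (y ^ k * a * (y ^ k)⁻¹) * y⁻¹ := by
      rw [pow_succ']; group
    rw [e]; exact this

/-- in a group where `c = a b a⁻¹ b⁻¹` commutes with `a` and `b` -/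
theorem pow_mul_comm_of_central {Γ : Type*} [Group Γ] {a b c : Γ} (hc : c = a * b * a⁻¹ * b⁻¹)
    (hca : c * a = a * c) (k : ℕ) : a ^ k * b = c ^ k * b * a ^ k := by
  have hab : a * b = c * b * a := by rw [hc]; group
  induction k with
  | zero => simp
  | succ k ih =>
    have hcak : ∀ j : ℕ, a * c ^ j = c ^ j * a := fun j =>
      ((Commute.pow_right (show Commute a c from hca.symm) j)).eq
    calc a ^ (k + 1) * b = a * (a ^ k * b) := by rw [pow_succ']; group
      _ = a * (c ^ k * b * a ^ k) := by rw [ih]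
      _ = (a * c ^ k) * b * a ^ k := by group
      _ = c ^ k * (a * b) * a ^ k := by rw [hcak]; group
      _ = c ^ k * (c * b * a) * a ^ k := by rw [hab]
      _ = c ^ (k + 1) * b * a ^ (k + 1) := by rw [pow_succ, pow_succ']; group

section lin
variable {q : ℕ} [Fact q.Prime] {V : Type*} [AddCommGroup V] [Module (ZMod q) V] [Finite V]

theorem finrank_eq_of_card {n : ℕ} (hV : Nat.card V = q ^ n) : Module.finrank (ZMod q) V = n := by
  classical
  have hq : q.Prime := Fact.out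
  let _ : Fintype V := Fintype.ofFinite V
  have h := Module.card_eq_pow_finrank (K := ZMod q) (V := V)
  rw [ZMod.card, ← Nat.card_eq_fintype_card, hV] at h
  exact (Nat.pow_right_injective hq.two_le h).symm

/-- RUNG LOCAL -/
theorem local_lemma {p r n s : ℕ} [Fact p.Prime] [Fact r.Prime] (hn : 2 ≤ n) (hp : IsPPD p q n)
    (hV : Nat.card V = q ^ n) (hrq : r ≠ q) (hrp : r ≠ p) (y : V ≃ₗ[ZMod q] V)
    (hy : orderOf y = p ^ (s + 1)) (R : Subgroup (V ≃ₗ[ZMod q] V)) (hR : IsPGroup r R)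
    (hyR : ∀ a ∈ R, y * a * y⁻¹ ∈ R) (hxR : ∃ a ∈ R, y ^ p ^ s * a ≠ a * y ^ p ^ s) :
    s = 0 ∧ p = n + 1 ∧ r = 2 ∧ ∃ k : ℕ, n = 2 ^ k := by
  classical
  have hpp : p.Prime := Fact.out
  have hrr : r.Prime := Fact.out
  have hqq : q.Prime := Fact.out
  have hfin : Finite (V ≃ₗ[ZMod q] V) :=
    Finite.of_injective (fun f => (f : V → V)) DFunLike.coe_injective
  have hnt : Nontrivial V := by
    rw [← Finite.one_lt_card_iff_nontrivial, hV]
    exact Nat.one_lt_pow (by omega) hqq.one_lt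
  set x := y ^ p ^ s with hxdef
  have hx : orderOf x = p := by
    rw [hxdef, orderOf_pow_of_dvd (pow_ne_zero _ hpp.ne_zero) (by rw [hy]; exact pow_dvd_pow p (Nat.le_succ s)),
      hy, pow_succ, Nat.mul_div_cancel_left _ (pow_pos hpp.pos s)]
  have hxy : x ∈ zpowers y := (zpowers y).pow_mem (mem_zpowers y) _
  obtain ⟨D, hDR, hmin⟩ := exists_minD y x R hyR hxR
  have hD : IsPGroup r D := hR.to_le hDR
  have hgen := minD_gen (Ne.symm hrp) hxy hx hD hmin
  have hxD : ∀ a ∈ D, x * a * x⁻¹ ∈ D := conj_pow_mem hmin.inv _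
  have hirr : Irr (zpowers x) := irr_of_ppd hp hV x hx
  obtain ⟨a₁, ha₁D, ha₁⟩ := hmin.nc
  have hDne : D ≠ ⊥ := by
    rintro rfl
    rw [mem_bot] at ha₁D
    subst ha₁D
    simp at ha₁
  obtain ⟨kD, hkD⟩ := IsPGroup.iff_card.mp hD
  have hDq : ¬ q ∣ Nat.card D := by
    rw [hkD]
    intro h
    exact hrq ((Nat.prime_dvd_prime_iff_eq hqq hrr).mp (hqq.dvd_of_dvd_pow h)).symm
  by_cases hab : ∀ a ∈ D, ∀ b ∈ D, a * b = b * a
  · exact (abelian_false hp hV x hx D hDq hxD hab hgen hDne).elim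
  push Not at hab
  obtain ⟨a₀, ha₀, b₀, hb₀, hab₀⟩ := hab
  have hcc := minD_cent_central (Ne.symm hrp) hxy hx hD hmin
  have hzc := minD_center_cent hmin ⟨a₀, ha₀, b₀, hb₀, hab₀⟩
  obtain ⟨hcomm, hpow⟩ := minD_comm_pow_cent hD hmin
  set C₀ : Subgroup (V ≃ₗ[ZMod q] V) := D ⊓ centralizer ({x} : Set (V ≃ₗ[ZMod q] V)) with hC₀
  have hmemC₀ : ∀ c, c ∈ C₀ ↔ c ∈ D ∧ x * c = c * x := by
    intro c
    rw [hC₀, mem_inf, mem_centralizer_singleton_iff, eq_comm]
  have hC₀Z : D ⊓ centralizer (D : Set (V ≃ₗ[ZMod q] V)) = C₀ := by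
    ext c
    rw [hmemC₀, mem_inf, mem_centralizer_iff]
    constructor
    · rintro ⟨h1, h2⟩
      exact ⟨h1, hzc c h1 (fun d hd => (h2 d hd).symm)⟩
    · rintro ⟨h1, h2⟩
      exact ⟨h1, fun d hd => (hcc c h1 h2 d hd).symm⟩
  have hC₀D : C₀ ≤ D := inf_le_left
  have hcyc : IsCyclic C₀ := isCyclic_of_commute_irr x hirr C₀ (fun a ha => ((hmemC₀ a).mp ha).2)
  -- commutators have order dividing `r`
  have hcommC₀ : ∀ a ∈ D, ∀ b ∈ D, a * b * a⁻¹ * b⁻¹ ∈ C₀ := fun a ha b hb =>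
    (hmemC₀ _).mpr ⟨D.mul_mem (D.mul_mem (D.mul_mem ha hb) (D.inv_mem ha)) (D.inv_mem hb),
      hcomm a ha b hb⟩
  have hcent : ∀ c ∈ C₀, ∀ d ∈ D, c * d = d * c := fun c hc d hd =>
    hcc c ((hmemC₀ c).mp hc).1 ((hmemC₀ c).mp hc).2 d hd
  have hcommr : ∀ a ∈ D, ∀ b ∈ D, (a * b * a⁻¹ * b⁻¹) ^ r = 1 := by
    intro a ha b hb
    have h1 := pow_mul_comm_of_central (a := a) (b := b) rfl (hcent _ (hcommC₀ a ha b hb) a ha) r
    have h2 : a ^ r * b = b * a ^ r :=
      hcc _ (D.pow_mem ha r) (hpow a ha) b hb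
    rw [h2] at h1
    have h3 : b * a ^ r = (a * b * a⁻¹ * b⁻¹) ^ r * (b * a ^ r) := by rw [← mul_assoc]; exact h1
    exact right_eq_mul.mp h3
  set c₀ := a₀ * b₀ * a₀⁻¹ * b₀⁻¹ with hc₀
  have hc₀1 : c₀ ≠ 1 := by
    intro h
    apply hab₀
    have : a₀ * b₀ = c₀ * (b₀ * a₀) := by rw [hc₀]; group
    rw [this, h, one_mul]
  have hc₀o : orderOf c₀ = r := orderOf_eq_prime (hcommr a₀ ha₀ b₀ hb₀) hc₀1
  have hc₀C : c₀ ∈ C₀ := hcommC₀ a₀ ha₀ b₀ hb₀
  -- elements of `C₀` of order dividing `r` lie in `zpowers c₀`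
  have hΩ : ∀ c ∈ C₀, c ^ r = 1 → c ∈ zpowers c₀ := by
    intro c hc hcr
    let _ : Fintype C₀ := Fintype.ofFinite _
    have hle := IsCyclic.card_pow_eq_one_le (α := C₀) (n := r) hrr.pos
    set T : Finset C₀ := Finset.univ.filter (fun a : C₀ => a ^ r = 1) with hT
    let c₀' : C₀ := ⟨c₀, hc₀C⟩
    have hc₀'o : orderOf c₀' = r := by
      rw [← hc₀o]; exact Subgroup.orderOf_mk c₀ hc₀C
    have himg : (Finset.range r).image (fun i => c₀' ^ i) ⊆ T := by
      intro g hg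
      obtain ⟨i, _, rfl⟩ := Finset.mem_image.mp hg
      rw [hT, Finset.mem_filter]
      refine ⟨Finset.mem_univ _, ?_⟩
      rw [← pow_mul, mul_comm, pow_mul, ← hc₀'o, pow_orderOf_eq_one, one_pow]
    have hcardimg : ((Finset.range r).image (fun i => c₀' ^ i)).card = r := by
      rw [Finset.card_image_of_injOn, Finset.card_range]
      intro i hi j hj hij
      rw [Finset.coe_range, Set.mem_Iio] at hi hj
      exact pow_injOn_Iio_orderOf (by rw [hc₀'o]; exact hi) (by rw [hc₀'o]; exact hj) hij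
    have heq : (Finset.range r).image (fun i => c₀' ^ i) = T :=
      Finset.eq_of_subset_of_card_le himg (by rw [hcardimg]; exact hle)
    have hcT : (⟨c, hc⟩ : C₀) ∈ T := by
      rw [hT, Finset.mem_filter]
      exact ⟨Finset.mem_univ _, Subtype.ext (by simpa using hcr)⟩
    rw [← heq] at hcT
    obtain ⟨i, _, hi⟩ := Finset.mem_image.mp hcT
    refine ⟨(i : ℤ), ?_⟩
    have := congrArg Subtype.val hi
    simpa using this
  obtain ⟨m, hm⟩ := Cfsg.Agent.Lib.Helper67.exists_relIndex_center_eq (p := r)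
    (Z := zpowers c₀) (H := D) (by rw [Nat.card_zpowers, hc₀o])
    (fun a ha b hb => hΩ _ (hcommC₀ a ha b hb) (hcommr a ha b hb))
    (fun z hz h hh => by
      have hzC : z ∈ C₀ := (zpowers_le.mpr hc₀C) hz
      exact (hcent z hzC h hh).symm)
  rw [hC₀Z] at hm
  have hcardD : Nat.card D = Nat.card C₀ * r ^ (2 * m) := by
    rw [card_eq_card_mul_relIndex hC₀D, hm]
  have hC₀pos : 0 < Nat.card C₀ := Nat.card_pos
  have hm0 : 0 < m := by
    rcases Nat.eq_zero_or_pos m with h | h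
    · exfalso
      subst h
      rw [mul_zero, pow_zero, mul_one] at hcardD
      have : C₀ = D := Subgroup.eq_of_le_of_card_ge hC₀D hcardD.le
      have h2 : a₁ ∈ C₀ := by rw [this]; exact ha₁D
      exact ha₁ ((hmemC₀ a₁).mp h2).2
    · exact h
  -- semiregularity
  have hdvd := dvd_card_sub_card_cent (p := p) (s := s) hy hmin.inv
  rw [← hxdef, ← hC₀, hcardD] at hdvd
  have hdvd2 : p ^ (s + 1) ∣ r ^ (2 * m) - 1 := by
    have e : Nat.card C₀ * r ^ (2 * m) - Nat.card C₀ = Nat.card C₀ * (r ^ (2 * m) - 1) := by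
      rw [Nat.mul_sub, mul_one]
    rw [e] at hdvd
    obtain ⟨kC, hkC⟩ := IsPGroup.iff_card.mp (hD.to_le hC₀D)
    have hcop : Nat.Coprime (p ^ (s + 1)) (Nat.card C₀) := by
      rw [hkC]
      exact Nat.Coprime.pow _ _ ((Nat.coprime_primes hpp hrr).mpr (Ne.symm hrp))
    exact hcop.dvd_of_dvd_mul_left hdvd
  have hnp : n + 1 ≤ p := succ_le_of_isPPD (by omega) hqq.one_lt hp
  have hle1 : p ^ (s + 1) ≤ r ^ m + 1 :=
    le_of_pow_dvd hpp (by omega) hrr.one_lt hm0 hdvd2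
  -- the dimension bound
  set S : Subring (Module.End (ZMod q) V) :=
    Subring.centralizer ({x.toLinearMap} ∪ {f | ∃ d ∈ D, f = d.toLinearMap}) with hS
  have hmulE : ∀ a b : V ≃ₗ[ZMod q] V, (a * b).toLinearMap = a.toLinearMap * b.toLinearMap :=
    fun _ _ => rfl
  have hdim := card_le_sq_mul D C₀ hC₀D S
    (fun f hf h0 => injective_of_commute_irr x hirr f
      ((Subring.mem_centralizer_iff.mp hf) _ (Or.inl rfl)).symm h0)
    (fun f hf d hd => ((Subring.mem_centralizer_iff.mp hf) _ (Or.inr ⟨d, hd, rfl⟩)).symm)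
    (fun c hc => by
      rw [hS, Subring.mem_centralizer_iff]
      rintro g (hg | ⟨d, hd, rfl⟩)
      · rw [Set.mem_singleton_iff] at hg
        subst hg
        rw [← hmulE, ← hmulE, ((hmemC₀ c).mp hc).2]
      · rw [← hmulE, ← hmulE, hcent c hc d hd])
    hcommC₀
    (fun t ht htC => by
      by_contra hcon
      push Not at hcon
      apply htC
      rw [← hC₀Z, mem_inf, mem_centralizer_iff]
      exact ⟨ht, fun g hg => hcon g hg⟩)
  rw [finrank_eq_of_card hV, hcardD, mul_comm] at hdim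
  have hle2 : r ^ m ≤ n := by
    have h1 : r ^ (2 * m) ≤ n ^ 2 := Nat.le_of_mul_le_mul_right hdim hC₀pos
    rw [mul_comm, pow_mul] at h1
    exact (Nat.pow_le_pow_iff_left (by norm_num)).mp h1
  -- conclusion
  have hps : p ≤ p ^ (s + 1) := by
    calc p = p ^ 1 := (pow_one p).symm
      _ ≤ p ^ (s + 1) := Nat.pow_le_pow_right hpp.pos (by omega)
  have hpeq : p ^ (s + 1) = p := by omega
  have hs0 : s = 0 := by
    have : p ^ (s + 1) = p ^ 1 := by rw [hpeq, pow_one]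
    have := Nat.pow_right_injective hpp.two_le this
    omega
  have hpn : p = n + 1 := by omega
  have hnr : n = r ^ m := by omega
  have hr2 : r = 2 := by
    have hpodd : Odd p := hpp.odd_of_ne_two (by omega)
    have hneven : Even n := by
      rw [hpn] at hpodd
      exact (Nat.even_add_one.not_left.mp (Nat.not_even_iff_odd.mpr hpodd))
    rw [hnr] at hneven
    have : Even r := (Nat.even_pow.mp hneven).1
    exact (hrr.even_iff.mp this)
  exact ⟨hs0, hpn, hr2, m, by rw [hnr, hr2]⟩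

end lin

end Cfsg.Agent.Lib.Helper76.Hup
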