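import Mathlib
import Cfsg.Agent.Lib.Helper76.Hup.Defs
import Cfsg.Agent.Lib.Helper76.Hup.Basic
import Cfsg.Agent.Lib.Helper71.HupFIT
import Cfsg.Agent.Lib.Helper41.HupOQSR
import Cfsg.Agent.Lib.Helper76.Hup.Local

/-! Ladder "HUP": the global lemma. -/

set_option autoImplicit false

namespace Cfsg.Agent.Lib.Helper76.Hup

open Subgroup
open Cfsg.Agent.Lib.Helper71.Hup (exists_normal_rgroup)
open Cfsg.Agent.Lib.Helper62.Hup (irr_of_ppd isCyclic_of_commute_irr)
open Cfsg.Agent.Lib.Helper41.Hup (eq_bot_of_normal_qgroup)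

section lin
variable {q : ℕ} [Fact q.Prime] {V : Type*} [AddCommGroup V] [Module (ZMod q) V] [Finite V]

/-- RUNG GLOBAL -/
theorem global_lemma {n p : ℕ} (hn : 2 ≤ n) (hV : Nat.card V = q ^ n)
    (G : Subgroup (V ≃ₗ[ZMod q] V)) (hsol : Group.IsSolvable G) (htr : Trans G) (hno : ¬ HasIAN G)
    (hp : IsPPD p q n) : p = n + 1 ∧ ¬ p ^ 2 ∣ q ^ n - 1 ∧ q ≠ 2 ∧ ∃ k : ℕ, n = 2 ^ k := by
  classical
  have hqq : q.Prime := Fact.out
  have hpp : p.Prime := hp.1
  have _ : Fact p.Prime := ⟨hpp⟩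
  have hfin := finite_gl (q := q) (V := V)
  have hnt : Nontrivial V := by
    rw [← Finite.one_lt_card_iff_nontrivial, hV]
    exact Nat.one_lt_pow (by omega) hqq.one_lt
  have hdvdG : q ^ n - 1 ∣ Nat.card G := by
    have := card_sub_one_dvd G htr
    rwa [hV] at this
  have hpG : p ∣ Nat.card G := hp.2.1.trans hdvdG
  -- normal `p`-subgroups are trivial
  have hOp : ∀ Q : Subgroup (V ≃ₗ[ZMod q] V), Q ≤ G → (∀ g ∈ G, ∀ a ∈ Q, g * a * g⁻¹ ∈ Q) →
      IsPGroup p Q → Q = ⊥ := by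
    intro Q hQG hQn hQ
    by_contra hne
    obtain ⟨z, hzQ, hzo, hzc⟩ := exists_central_orderOf_eq hQ hne
    apply hno
    refine ⟨Q ⊓ centralizer (Q : Set (V ≃ₗ[ZMod q] V)), ⟨inf_le_left.trans hQG,
      center_conj_mem hQn, ?_⟩, ?_⟩
    · intro a ha b hb
      rw [mem_inf, mem_centralizer_iff] at hb
      exact hb.2 a ha.1
    · apply (irr_of_ppd hp hV z hzo).mono
      rw [zpowers_le, mem_inf, mem_centralizer_iff]
      exact ⟨hzQ, fun b hb => (hzc b hb).symm⟩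
  -- the Sylow `p`-subgroup
  obtain ⟨P⟩ : Nonempty (Sylow p G) := inferInstance
  set P' : Subgroup (V ≃ₗ[ZMod q] V) := (P : Subgroup G).map G.subtype with hP'
  have hcardP' : Nat.card P' = Nat.card (P : Subgroup G) :=
    Subgroup.card_map_of_injective G.subtype_injective
  have hcardP : Nat.card (P : Subgroup G) = p ^ (Nat.card G).factorization p :=
    P.card_eq_multiplicity
  have hP'G : P' ≤ G := by
    rintro _ ⟨a, _, rfl⟩
    exact a.2
  have hP'p : IsPGroup p P' := by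
    rw [IsPGroup.iff_card]
    exact ⟨_, hcardP'.trans hcardP⟩
  have hfac : 0 < (Nat.card G).factorization p :=
    hpp.factorization_pos_of_dvd Nat.card_pos.ne' hpG
  obtain ⟨s, hs⟩ : ∃ s, (Nat.card G).factorization p = s + 1 := ⟨_, (Nat.succ_pred_eq_of_pos hfac).symm⟩
  have hP'ne : P' ≠ ⊥ := by
    intro h
    rw [h, Subgroup.card_bot, hcardP, hs] at hcardP'
    have := Nat.one_lt_pow (n := s + 1) (by omega) hpp.one_lt
    omega
  obtain ⟨x₀, hx₀P, hx₀o, hx₀c⟩ := exists_central_orderOf_eq hP'p hP'ne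
  have hcyc : IsCyclic P' := isCyclic_of_commute_irr x₀ (irr_of_ppd hp hV x₀ hx₀o) P' hx₀c
  obtain ⟨y', hy'⟩ := hcyc.exists_generator
  have hy'o : orderOf y' = Nat.card P' := orderOf_eq_card_of_forall_mem_zpowers hy'
  set y : V ≃ₗ[ZMod q] V := (y' : V ≃ₗ[ZMod q] V) with hy
  have hyo : orderOf y = p ^ (s + 1) := by
    rw [hy, Subgroup.orderOf_coe, hy'o, hcardP', hcardP, hs]
  have hyG : y ∈ G := hP'G y'.2
  have hxo : orderOf (y ^ p ^ s) = p := by
    rw [orderOf_pow_of_dvd (pow_ne_zero _ hpp.ne_zero)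
      (by rw [hyo]; exact pow_dvd_pow p (Nat.le_succ s)),
      hyo, pow_succ, Nat.mul_div_cancel_left _ (pow_pos hpp.pos s)]
  obtain ⟨r, hr, R, hRG, hRn, hRr, hRx⟩ :=
    exists_normal_rgroup G hsol hOp (y ^ p ^ s) (G.pow_mem hyG _) hxo
  have hRne : R ≠ ⊥ := by
    rintro rfl
    obtain ⟨a, ha, hax⟩ := hRx
    rw [mem_bot] at ha
    subst ha
    simp at hax
  have hrp : r ≠ p := by
    rintro rfl
    exact hRne (hOp R hRG hRn hRr)
  have hrq : r ≠ q := by
    rintro rfl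
    exact hRne (eq_bot_of_normal_qgroup G htr R hRG hRn hRr)
  obtain ⟨hs0, hpn, hr2, k, hk⟩ := local_lemma hn hp hV hrq hrp y hyo R hRr (hRn y hyG) hRx
  refine ⟨hpn, ?_, ?_, k, hk⟩
  · intro h2
    have h3 : p ^ 2 ∣ Nat.card G := h2.trans hdvdG
    have h4 := (hpp.pow_dvd_iff_le_factorization Nat.card_pos.ne').mp h3
    omega
  · rintro rfl
    exact hrq hr2

end lin

end Cfsg.Agent.Lib.Helper76.Hup
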