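import Mathlib
import Cfsg.Agent.Lib.Helper76.Hup.Defs
import Cfsg.Agent.Lib.Helper76.Hup.Basic
import Cfsg.Agent.Lib.Helper71.HupM5

/-! Ladder "HUP": tools for the case `|V| = 2 ^ 6`. -/

set_option autoImplicit false

namespace Cfsg.Agent.Lib.Helper76.Hup

open Subgroup

section general
variable {q : ℕ} {V : Type*} [AddCommGroup V] [Module (ZMod q) V] [Finite V]

/-- a group acting semiregularly on the nonzero vectors: `|A|` divides `|W| - 1` for invariant `W` -/
theorem card_dvd_of_semiregular (A : Subgroup (V ≃ₗ[ZMod q] V))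
    (hsr : ∀ a ∈ A, ∀ v : V, v ≠ 0 → a v = v → a = 1) (W : Submodule (ZMod q) V)
    (hW : ∀ a ∈ A, ∀ w ∈ W, a w ∈ W) : Nat.card A ∣ Nat.card W - 1 := by
  classical
  have hfin := finite_gl (q := q) (V := V)
  let X := {w : V // w ∈ W ∧ w ≠ 0}
  let _ : MulAction A X :=
    { smul := fun a w => ⟨(a : V ≃ₗ[ZMod q] V) w.1, hW a a.2 _ w.2.1,
        fun h => w.2.2 ((LinearEquiv.map_eq_zero_iff _).mp h)⟩
      one_smul := fun w => Subtype.ext rfl
      mul_smul := fun a b w => Subtype.ext rfl }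
  have h1 := Cfsg.Agent.Lib.Helper71.Hup.card_dvd_of_free (H := A) (X := X)
    (fun a w h => Subtype.ext (hsr a a.2 w.1 w.2.2 (congrArg Subtype.val h)))
  have h2 : Nat.card X = Nat.card W - 1 := by
    have e : Nat.card X = ((W : Set V) \ {0}).ncard := by
      rw [← Nat.card_coe_set_eq]
      apply Nat.card_congr
      exact Equiv.subtypeEquivRight (fun w => by simp)
    rw [e, Set.ncard_sdiff_singleton_of_mem (W.zero_mem), ← Nat.card_coe_set_eq]
    rfl
  rwa [h2] at h1

end general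

section grp
variable {Γ : Type*} [Group Γ]

theorem comm_of_card_pow_le_two {p k : ℕ} [Fact p.Prime] (Q : Subgroup Γ) (hk : k ≤ 2)
    (hQ : Nat.card Q = p ^ k) : ∀ a ∈ Q, ∀ b ∈ Q, a * b = b * a := by
  have key : ∀ a b : Q, a * b = b * a := by
    have : k = 0 ∨ k = 1 ∨ k = 2 := by omega
    rcases this with rfl | rfl | rfl
    · rw [pow_zero] at hQ
      have hs : Subsingleton Q := (Nat.card_eq_one_iff_unique.mp hQ).1
      intro a b
      rw [Subsingleton.elim a b]
    · rw [pow_one] at hQ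
      have hc : IsCyclic Q := isCyclic_of_prime_card hQ
      intro a b
      exact (IsCyclic.isMulCommutative (α := Q)).is_comm.comm a b
    · intro a b
      exact (IsPGroup.isMulCommutative_of_card_eq_prime_sq hQ).is_comm.comm a b
  intro a ha b hb
  exact congrArg Subtype.val (key ⟨a, ha⟩ ⟨b, hb⟩)

/-- two subgroups normalized by `G`, inside `G`, with trivial intersection commute -/
theorem commute_of_normal_inf_bot {G N T : Subgroup Γ} (hNG : N ≤ G) (hTG : T ≤ G)
    (hNn : ∀ g ∈ G, ∀ a ∈ N, g * a * g⁻¹ ∈ N) (hTn : ∀ g ∈ G, ∀ a ∈ T, g * a * g⁻¹ ∈ T)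
    (hbot : N ⊓ T = ⊥) : ∀ a ∈ N, ∀ b ∈ T, a * b = b * a := by
  intro a ha b hb
  have h1 : a * b * a⁻¹ * b⁻¹ ∈ T := T.mul_mem (hTn a (hNG ha) b hb) (T.inv_mem hb)
  have h2 : a * b * a⁻¹ * b⁻¹ ∈ N := by
    have : a * b * a⁻¹ * b⁻¹ = a * (b * a⁻¹ * b⁻¹) := by group
    rw [this]
    exact N.mul_mem ha (hNn b (hTG hb) _ (N.inv_mem ha))
  have h3 : a * b * a⁻¹ * b⁻¹ ∈ N ⊓ T := ⟨h2, h1⟩
  rw [hbot, mem_bot] at h3
  have : a * b = (a * b * a⁻¹ * b⁻¹) * (b * a) := by group
  rw [this, h3, one_mul]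

/-- the join of two subgroups normalized by `G` is normalized by `G` -/
theorem sup_conj_mem {G N T : Subgroup Γ}
    (hNn : ∀ g ∈ G, ∀ a ∈ N, g * a * g⁻¹ ∈ N) (hTn : ∀ g ∈ G, ∀ a ∈ T, g * a * g⁻¹ ∈ T) :
    ∀ g ∈ G, ∀ a ∈ N ⊔ T, g * a * g⁻¹ ∈ N ⊔ T := by
  intro g hg a ha
  have hle : N ⊔ T ≤ (N ⊔ T).comap (MulAut.conj g).toMonoidHom := by
    apply sup_le
    · intro b hb
      exact (le_sup_left : N ≤ N ⊔ T) (hNn g hg b hb)
    · intro b hb
      exact (le_sup_right : T ≤ N ⊔ T) (hTn g hg b hb)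
  exact hle ha

/-- the join of two commuting abelian subgroups is abelian -/
theorem sup_comm {N T : Subgroup Γ} (hN : ∀ a ∈ N, ∀ b ∈ N, a * b = b * a)
    (hT : ∀ a ∈ T, ∀ b ∈ T, a * b = b * a) (hNT : ∀ a ∈ N, ∀ b ∈ T, a * b = b * a) :
    ∀ a ∈ N ⊔ T, ∀ b ∈ N ⊔ T, a * b = b * a := by
  have h1 : N ≤ centralizer ((N ⊔ T : Subgroup Γ) : Set Γ) := by
    rw [le_centralizer_iff]
    apply sup_le
    · intro b hb
      rw [mem_centralizer_iff]
      intro a ha
      exact hN a ha b hb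
    · intro b hb
      rw [mem_centralizer_iff]
      intro a ha
      exact hNT a ha b hb
  have h2 : T ≤ centralizer ((N ⊔ T : Subgroup Γ) : Set Γ) := by
    rw [le_centralizer_iff]
    apply sup_le
    · intro b hb
      rw [mem_centralizer_iff]
      intro a ha
      exact (hNT b hb a ha).symm
    · intro b hb
      rw [mem_centralizer_iff]
      intro a ha
      exact hT a ha b hb
  intro a ha b hb
  have := (mem_centralizer_iff.mp ((sup_le h1 h2) hb)) a ha
  exact this

end grp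

section two_six
variable {V : Type*} [AddCommGroup V] [Module (ZMod 2) V] [Finite V]

theorem finrank_eq_six (hV : Nat.card V = 2 ^ 6) : Module.finrank (ZMod 2) V = 6 := by
  classical
  let _ : Fintype V := Fintype.ofFinite V
  have h := Module.card_eq_pow_finrank (K := ZMod 2) (V := V)
  rw [ZMod.card, ← Nat.card_eq_fintype_card, hV] at h
  exact (Nat.pow_right_injective (le_refl 2) h).symm

theorem card_gl26 (hV : Nat.card V = 2 ^ 6) : Nat.card (V ≃ₗ[ZMod 2] V) = 20158709760 := by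
  let b := Module.finBasisOfFinrankEq (ZMod 2) V (finrank_eq_six hV)
  have e1 : (V ≃ₗ[ZMod 2] V) ≃* (Module.End (ZMod 2) V)ˣ :=
    (LinearMap.GeneralLinearGroup.generalLinearEquiv (ZMod 2) V).symm
  have e2 : (Module.End (ZMod 2) V)ˣ ≃* (Matrix (Fin 6) (Fin 6) (ZMod 2))ˣ :=
    Units.mapEquiv (algEquivMatrix b).toMulEquiv
  rw [Nat.card_congr e1.toEquiv, Nat.card_congr e2.toEquiv]
  have := Matrix.card_GL_field (𝔽 := ZMod 2) 6
  rw [this]
  simp [Fin.prod_univ_six]

/-- a semiregular group of order divisible by `9` or `21` is irreducible -/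
theorem irr_of_semiregular26 (hV : Nat.card V = 2 ^ 6) (A : Subgroup (V ≃ₗ[ZMod 2] V))
    (hsr : ∀ a ∈ A, ∀ v : V, v ≠ 0 → a v = v → a = 1)
    (hA : 9 ∣ Nat.card A ∨ 21 ∣ Nat.card A) : Irr A := by
  classical
  intro W hW
  have h1 := card_dvd_of_semiregular A hsr W hW
  let _ : Fintype W := Fintype.ofFinite W
  have h2 := Module.card_eq_pow_finrank (K := ZMod 2) (V := W)
  rw [ZMod.card, ← Nat.card_eq_fintype_card] at h2
  have h3 : Module.finrank (ZMod 2) W ≤ 6 := by
    rw [← finrank_eq_six hV]; exact Submodule.finrank_le W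
  rw [h2] at h1
  have h4 : Module.finrank (ZMod 2) W = 0 ∨ Module.finrank (ZMod 2) W = 6 := by
    generalize Module.finrank (ZMod 2) W = j at h1 h3
    rcases hA with hA | hA
    · have h5 := hA.trans h1
      interval_cases j <;> simp_all
    · have h5 := hA.trans h1
      interval_cases j <;> simp_all
  rcases h4 with h | h
  · left; exact Submodule.finrank_eq_zero.mp h
  · right; exact Submodule.eq_top_of_finrank_eq (by rw [h, finrank_eq_six hV])

end two_six

end Cfsg.Agent.Lib.Helper76.Hup
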